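import Cfsg.Agent.Lib.Helper37.CharPMore

set_option autoImplicit false

namespace Cfsg.Agent.Lib.Helper37

open Cfsg.Agent.Lib

universe u

/-- `F*(X)` a `p`-group is the same as characteristic `p` -/
theorem charP_of_isPGroup_genFitting {X : Type u} [Group X] [Finite X] {p : ℕ}
    (h : IsPGroup p ↥(Cfsg.generalizedFittingSubgroup X)) : CharP p X := by
  have h1 : Cfsg.generalizedFittingSubgroup X ≤ Cfsg.pCore p X :=
    Helper28.le_pCore Helper28.genFitting_normal h
  exact (Subgroup.centralizer_le h1).trans (Helper28.centralizer_genFitting_le.trans h1)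

theorem CharP.isPGroup_genFitting {X : Type u} [Group X] [Finite X] {p : ℕ} [Fact p.Prime]
    (h : CharP p X) : IsPGroup p ↥(Cfsg.generalizedFittingSubgroup X) := by
  rw [h.genFitting_eq]
  exact Helper28.pCore_isPGroup p

/-- `C_G(V)` of characteristic `p` implies `N_G(V)` of characteristic `p`, `V` a `p`-subgroup -/
theorem charP_normalizer_of_centralizer {G : Type u} [Group G] [Finite G] {p : ℕ} [Fact p.Prime]
    {V : Subgroup G} (hV : IsPGroup p ↥V) (h : CharP p ↥(Subgroup.centralizer (V : Set G))) :
    CharP p ↥(Subgroup.normalizer (V : Set G)) := by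
  have hle : Subgroup.centralizer (V : Set G) ≤ Subgroup.normalizer (V : Set G) :=
    Subgroup.centralizer_le_normalizer _
  refine CharP.of_centralizer_le' hle
    ((Subgroup.normal_subgroupOf_iff_le_normalizer hle).2
      (normalizer_le_normalizer_centralizer' V)).isSubnormal ?_ h
  intro x hx
  have hn : (V.subgroupOf (Subgroup.normalizer (V : Set G))).Normal :=
    Subgroup.normal_in_normalizer
  have hp : IsPGroup p ↥(V.subgroupOf (Subgroup.normalizer (V : Set G))) :=
    hV.comap_of_injective _ (Subgroup.subtype_injective _)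
  have hle' := Helper28.le_pCore hn hp
  rw [Subgroup.mem_centralizer_iff]
  intro v hv
  have hvN : v ∈ Subgroup.normalizer (V : Set G) := Subgroup.le_normalizer hv
  have := (Subgroup.mem_centralizer_iff.1 hx) ⟨v, hvN⟩ (hle' hv)
  exact congrArg Subtype.val this

/-- `N_G(V)` of characteristic `p` implies `C_G(V)` of characteristic `p` -/
theorem charP_centralizer_of_normalizer {G : Type u} [Group G] [Finite G] {p : ℕ} [Fact p.Prime]
    {V : Subgroup G} (h : CharP p ↥(Subgroup.normalizer (V : Set G))) :
    CharP p ↥(Subgroup.centralizer (V : Set G)) :=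
  h.of_le_normalizer (Subgroup.centralizer_le_normalizer _)
    (normalizer_le_normalizer_centralizer' V)

end Cfsg.Agent.Lib.Helper37
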