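import Mathlib
import Cfsg.Agent.Lib.Helper59.TwoGroupRecog

set_option autoImplicit false

/-! The centralizer of a double transposition in `A₆` is dihedral of order 8. -/

namespace Cfsg.Agent.Lib.Helper37

/-- transport of centralizers along an isomorphism. -/
def centralizerCongr {A B : Type*} [Group A] [Group B] (φ : A ≃* B) (x : A) :
    Subgroup.centralizer ({x} : Set A) ≃* Subgroup.centralizer ({φ x} : Set B) where
  toFun g := ⟨φ g, by
    have := Subgroup.mem_centralizer_singleton_iff.1 g.2
    rw [Subgroup.mem_centralizer_singleton_iff, ← map_mul, ← map_mul, this]⟩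
  invFun h := ⟨φ.symm h, by
    have := Subgroup.mem_centralizer_singleton_iff.1 h.2
    rw [Subgroup.mem_centralizer_singleton_iff]
    apply φ.injective
    rw [map_mul, map_mul, MulEquiv.apply_symm_apply, this]⟩
  left_inv g := by simp
  right_inv h := by simp
  map_mul' g h := by
    apply Subtype.ext
    simp

abbrev A6 := alternatingGroup (Fin 6)

def a0p : Equiv.Perm (Fin 6) := Equiv.swap 0 1 * Equiv.swap 2 3
def c0p : Equiv.Perm (Fin 6) := Equiv.swap 0 3 * Equiv.swap 0 1 * Equiv.swap 0 2 * Equiv.swap 4 5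
def b0p : Equiv.Perm (Fin 6) := Equiv.swap 0 1 * Equiv.swap 4 5

def a0 : A6 := ⟨a0p, by rw [Equiv.Perm.mem_alternatingGroup]; decide⟩
def c0 : A6 := ⟨c0p, by rw [Equiv.Perm.mem_alternatingGroup]; decide⟩
def b0 : A6 := ⟨b0p, by rw [Equiv.Perm.mem_alternatingGroup]; decide⟩

theorem card_cent_a0 : Fintype.card {g : A6 // g * a0 = a0 * g} = 8 := by decide +kernel

theorem cycleType_of_order_two {π : Equiv.Perm (Fin 6)} (h2 : orderOf π = 2)
    (hs : π.support.card = 4) : π.cycleType = Multiset.replicate 2 2 := by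
  have : Fact (Nat.Prime 2) := ⟨Nat.prime_two⟩
  obtain ⟨n, hn⟩ := Equiv.Perm.cycleType_prime_order (σ := π) (by rw [h2]; exact Nat.prime_two)
  have h1 := Equiv.Perm.sum_cycleType π
  rw [hn, Multiset.sum_replicate, hs, h2, smul_eq_mul] at h1
  have : n = 1 := by omega
  rw [hn, this, h2]

theorem cent_a0 : Nonempty (Subgroup.centralizer ({a0} : Set A6) ≃* DihedralGroup 4) := by
  have hc : c0 ∈ Subgroup.centralizer ({a0} : Set A6) := by
    rw [Subgroup.mem_centralizer_singleton_iff]; decide
  have hb : b0 ∈ Subgroup.centralizer ({a0} : Set A6) := by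
    rw [Subgroup.mem_centralizer_singleton_iff]; decide
  have hcard : Nat.card (Subgroup.centralizer ({a0} : Set A6)) = 2 * 4 := by
    rw [show 2 * 4 = 8 from rfl, ← card_cent_a0, ← Nat.card_eq_fintype_card]
    apply Nat.card_congr
    exact Equiv.subtypeEquivRight (fun g => Subgroup.mem_centralizer_singleton_iff)
  have ho : orderOf c0 = 4 := by
    have h1 : orderOf c0 = 2 ^ 2 := by
      apply orderOf_eq_prime_pow (p := 2) (n := 1)
      · decide
      · decide
    rw [h1]; norm_num
  apply Cfsg.Agent.Lib.Helper59.dihedral_recog 4 (by norm_num) (⟨c0, hc⟩ : Subgroup.centralizer ({a0} : Set A6))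
    ⟨b0, hb⟩ _ _ _ _ hcard
  · rw [Subgroup.orderOf_mk, ho]
  · apply Subtype.ext; show b0 * b0 = 1; decide
  · apply Subtype.ext; show b0 * c0 * b0⁻¹ = c0⁻¹; decide
  · intro h
    obtain ⟨k, hk⟩ := (mem_powers_iff_mem_zpowers).2 h
    have h1 : c0 ^ k = b0 := by
      have := congrArg Subtype.val hk
      simpa using this
    have h2 : c0 ^ (k % 4) = b0 := by
      rw [← ho, pow_mod_orderOf, h1]
    have h3 : k % 4 < 4 := Nat.mod_lt _ (by norm_num)
    revert h2
    interval_cases (k % 4) <;> decide

theorem centralizer_alt6 (αt : A6) (hαt : orderOf αt = 2)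
    (hsupp : (αt : Equiv.Perm (Fin 6)).support.card = 4) :
    Nonempty (Subgroup.centralizer ({αt} : Set A6) ≃* DihedralGroup 4) := by
  have h1 : (αt : Equiv.Perm (Fin 6)).cycleType = Multiset.replicate 2 2 :=
    cycleType_of_order_two (by rw [Subgroup.orderOf_coe, hαt]) hsupp
  have h2 : a0p.cycleType = Multiset.replicate 2 2 := by
    apply cycleType_of_order_two
    · apply orderOf_eq_prime
      · decide
      · decide
    · decide
  have h3 : IsConj (αt : Equiv.Perm (Fin 6)) a0p := by
    rw [Equiv.Perm.isConj_iff_cycleType_eq, h1, h2]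
  obtain ⟨π, hπ⟩ := isConj_iff.1 h3
  obtain ⟨e⟩ := cent_a0
  have h4 : (MulAut.conjNormal π : MulAut A6) αt = a0 := by
    apply Subtype.ext
    rw [MulAut.conjNormal_apply]
    exact hπ
  have e1 := centralizerCongr (MulAut.conjNormal π : MulAut A6) αt
  rw [h4] at e1
  exact ⟨e1.trans e⟩

end Cfsg.Agent.Lib.Helper37
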