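import Cfsg.Agent.Lib.Helper37.Kieler
import Cfsg.Agent.Lib.Helper37.CharPCent
import Cfsg.Agent.Lib.Helper52.Misc
import Cfsg.Agent.Lib.Helper56.Basic

set_option autoImplicit false

namespace Cfsg.Agent.Lib.Helper37

open Cfsg.Agent.Lib

universe u

/-- normalizers of `p`-subgroups in groups of characteristic `p` have characteristic `p` -/
theorem CharP.normalizer {X : Type u} [Group X] [Finite X] {p : ℕ} [Fact p.Prime]
    (h : CharP p X) {P : Subgroup X} (hP : IsPGroup p ↥P) :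
    CharP p ↥(Subgroup.normalizer (P : Set X)) := by
  apply CharP.normalizer_of_le hP (bot_le : (⊥ : Subgroup X) ≤ P)
  have h1 : Subgroup.normalizer (((⊥ : Subgroup X) : Subgroup X) : Set X) = ⊤ :=
    Subgroup.normalizer_eq_top _
  rw [h1]
  exact CharP.congr Subgroup.topEquiv.symm h

/-- relative version -/
theorem charP_normalizer_of_le_charP {G : Type u} [Group G] [Finite G] {p : ℕ} [Fact p.Prime]
    {M T : Subgroup G} (hM : CharP p ↥M) (hT : IsPGroup p ↥T) (hTM : T ≤ M)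
    (hN : Subgroup.normalizer (T : Set G) ≤ M) :
    CharP p ↥(Subgroup.normalizer (T : Set G)) := by
  have h1 := hM.normalizer (P := T.subgroupOf M)
    (hT.comap_of_injective _ (Subgroup.subtype_injective _))
  rw [← Subgroup.subgroupOf_normalizer_eq hTM] at h1
  exact CharP.congr (Subgroup.subgroupOfEquivOfLe hN) h1

/-- a subgroup `C ≤ S` such that any two elements of `S` outside `C` are congruent mod `C` has
index at most two -/
theorem card_le_two_mul_of_forall {G : Type*} [Group G] [Finite G] {S C : Subgroup G}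
    (h : ∀ s ∈ S, ∀ t ∈ S, s ∉ C → t ∉ C → s⁻¹ * t ∈ C) :
    Nat.card ↥S ≤ 2 * Nat.card ↥C := by
  classical
  by_cases hSC : S ≤ C
  · have := Subgroup.card_le_of_le hSC
    omega
  · obtain ⟨s, hsS, hsC⟩ := SetLike.not_le_iff_exists.1 hSC
    let f : ↥S → Bool × ↥C := fun t =>
      if ht : (t : G) ∈ C then (true, ⟨t, ht⟩) else (false, ⟨s⁻¹ * t, h s hsS t t.2 hsC ht⟩)
    have hf : Function.Injective f := by
      intro a b hab
      by_cases ha : (a : G) ∈ C <;> by_cases hb : (b : G) ∈ C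
      · simp only [f, ha, hb, dif_pos, Prod.mk.injEq, Subtype.mk.injEq, true_and] at hab
        exact Subtype.ext hab
      · simp [f, ha, hb] at hab
      · simp [f, ha, hb] at hab
      · simp only [f, ha, hb, dif_neg, not_false_eq_true, Prod.mk.injEq, Subtype.mk.injEq,
          true_and, mul_right_inj] at hab
        exact Subtype.ext hab
    have := Nat.card_le_card_of_injective f hf
    have h2 : Nat.card Bool = 2 := by simp
    rwa [Nat.card_prod, h2] at this

/-- the converse -/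
theorem inv_mul_mem_of_card_le_two_mul {G : Type*} [Group G] [Finite G] {Q C : Subgroup G}
    (hCQ : C ≤ Q) (h : Nat.card ↥Q ≤ 2 * Nat.card ↥C) {s t : G} (hs : s ∈ Q) (ht : t ∈ Q)
    (hsC : s ∉ C) (htC : t ∉ C) : s⁻¹ * t ∈ C := by
  have h1 : Nat.card ↥C * C.relIndex Q = Nat.card ↥Q := by
    have := Subgroup.relIndex_mul_relIndex ⊥ C Q bot_le hCQ
    simpa [Subgroup.relIndex_bot_left] using this
  have hpos : 0 < Nat.card ↥C := Nat.card_pos
  have h2 : C.relIndex Q ≤ 2 := by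
    have : Nat.card ↥C * C.relIndex Q ≤ Nat.card ↥C * 2 := by rw [h1]; omega
    exact Nat.le_of_mul_le_mul_left this hpos
  have h3 : C.relIndex Q ≠ 1 := by
    intro h3
    rw [Subgroup.relIndex_eq_one] at h3
    exact hsC (h3 hs)
  have h4 : C.relIndex Q ≠ 0 := by
    intro h4
    rw [h4, mul_zero] at h1
    have : 0 < Nat.card ↥Q := Nat.card_pos
    omega
  have h5 : (C.subgroupOf Q).index = 2 := by
    change C.relIndex Q = 2
    omega
  have h6 := Subgroup.mul_mem_iff_of_index_two h5 (a := (⟨s, hs⟩ : ↥Q)⁻¹) (b := ⟨t, ht⟩)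
  have h7 : ((⟨s, hs⟩ : ↥Q)⁻¹ ∈ C.subgroupOf Q ↔ (⟨t, ht⟩ : ↥Q) ∈ C.subgroupOf Q) := by
    rw [Subgroup.inv_mem_iff, Subgroup.mem_subgroupOf, Subgroup.mem_subgroupOf]
    exact ⟨fun h => absurd h hsC, fun h => absurd h htC⟩
  exact h6.2 h7

/-- Let `X` be a `p'`-subgroup normalized by the Sylow `2`-subgroup `S` and `a ∈ S` with
`|S : C_S(a)| ≤ 2` such that `C_G(a)` has characteristic `2`. Then `C_X(a) = 1`. -/
theorem inf_centralizer_eq_bot_of_card_le {G : Type u} [Group G] [Finite G] (S : Sylow 2 G)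
    {X : Subgroup G} (hX : Odd (Nat.card ↥X))
    (hSX : (S : Subgroup G) ≤ Subgroup.normalizer (X : Set G)) {a : G}
    (hchar : CharP 2 ↥(Subgroup.centralizer ({a} : Set G)))
    (hidx : Nat.card ↥(S : Subgroup G) ≤
      2 * Nat.card ↥((S : Subgroup G) ⊓ Subgroup.centralizer ({a} : Set G) : Subgroup G)) :
    X ⊓ Subgroup.centralizer ({a} : Set G) = ⊥ := by
  have : Fact (Nat.Prime 2) := ⟨Nat.prime_two⟩
  set H := Subgroup.centralizer ({a} : Set G) with hH
  set Q := Cfsg.pCoreOf 2 H with hQ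
  set Y := X ⊓ H with hY
  set S₁ := (S : Subgroup G) ⊓ H with hS₁
  have hQH : Q ≤ H := Helper53.pCoreOf_le 2 H
  have hHQ : H ≤ Subgroup.normalizer (Q : Set G) := Helper53.le_normalizer_pCoreOf 2 H
  have hQp : IsPGroup 2 ↥Q := Helper53.pCoreOf_isPGroup 2 H
  have hcQ : H ⊓ Subgroup.centralizer (Q : Set G) ≤ Q := Helper53.charP_iff.1 hchar
  have hYodd : ∀ y ∈ Y, (orderOf y).Coprime 2 := by
    intro y hy
    have h1 : orderOf y ∣ Nat.card ↥X := by
      have := orderOf_dvd_natCard (⟨y, hy.1⟩ : ↥X)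
      rwa [Subgroup.orderOf_mk] at this
    exact Nat.Coprime.coprime_dvd_left h1 (Nat.coprime_two_right.2 hX)
  have hQY : ∀ x ∈ Q, x ∈ Y → x = 1 := fun x hxQ hxY =>
    eq_one_of_isPGroup_of_coprime hQp hxQ (hYodd x hxY)
  have hS₁Y : S₁ ≤ Subgroup.normalizer (Y : Set G) :=
    Helper53.le_normalizer_inf (inf_le_left.trans hSX) (inf_le_right.trans Subgroup.le_normalizer)
  -- `Y` centralizes `Q ⊓ S₁`
  have hcomm1 : ∀ y ∈ Y, ∀ q ∈ Q ⊓ S₁, y * q = q * y := by
    intro y hy q hq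
    have h1 : q * y * q⁻¹ ∈ Y := (Subgroup.mem_normalizer_iff.1 (hS₁Y hq.2) y).1 hy
    have h2 : y * q⁻¹ * y⁻¹ ∈ Q :=
      (Subgroup.mem_normalizer_iff.1 (hHQ hy.2) q⁻¹).1 (Q.inv_mem hq.1)
    have h3 : q * y * q⁻¹ * y⁻¹ = 1 := by
      apply hQY
      · have : q * y * q⁻¹ * y⁻¹ = q * (y * q⁻¹ * y⁻¹) := by group
        rw [this]; exact Q.mul_mem hq.1 h2
      · exact Y.mul_mem h1 (Y.inv_mem hy)
    have h4 : q * y = y * q := by
      have := congrArg (fun t => t * y * q) h3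
      simpa [mul_assoc] using this
    exact h4.symm
  -- index estimate
  have hcard : Nat.card ↥Q ≤ 2 * Nat.card ↥(Q ⊓ S₁ : Subgroup G) := by
    have h1 := Helper56.card_mul_card_le S₁ Q
    have h2 : IsPGroup 2 ↥(S₁ ⊔ Q : Subgroup G) :=
      (S.2.to_le inf_le_left).to_sup_of_normal_right' hQp (inf_le_right.trans hHQ)
    obtain ⟨S', hS'⟩ := h2.exists_le_sylow
    have h3 : Nat.card ↥(S₁ ⊔ Q : Subgroup G) ≤ Nat.card ↥(S : Subgroup G) := by
      have e1 := Subgroup.card_le_of_le hS'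
      rw [Sylow.card_eq_multiplicity] at e1
      rw [Sylow.card_eq_multiplicity]
      exact e1
    have hpos : 0 < Nat.card ↥S₁ := Nat.card_pos
    rw [inf_comm S₁ Q] at h1
    have h4 : Nat.card ↥S₁ * Nat.card ↥Q ≤ Nat.card ↥S₁ * (2 * Nat.card ↥(Q ⊓ S₁ : Subgroup G)) := by
      calc Nat.card ↥S₁ * Nat.card ↥Q
          ≤ Nat.card ↥(S₁ ⊔ Q : Subgroup G) * Nat.card ↥(Q ⊓ S₁ : Subgroup G) := h1
        _ ≤ Nat.card ↥(S : Subgroup G) * Nat.card ↥(Q ⊓ S₁ : Subgroup G) :=
            Nat.mul_le_mul_right _ h3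
        _ ≤ (2 * Nat.card ↥S₁) * Nat.card ↥(Q ⊓ S₁ : Subgroup G) := Nat.mul_le_mul_right _ hidx
        _ = Nat.card ↥S₁ * (2 * Nat.card ↥(Q ⊓ S₁ : Subgroup G)) := by ring
    exact Nat.le_of_mul_le_mul_left h4 hpos
  -- `Y` centralizes `Q`
  have hcomm2 : ∀ y ∈ Y, y ∈ Subgroup.centralizer (Q : Set G) := by
    intro y hy
    apply Helper52.coprime_centralizes_two_step (p := 2) (W := Q ⊓ S₁) (hQp.to_le inf_le_left)
      _ (fun q hq => hcomm1 y hy q hq) (hYodd y hy)
    intro q hq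
    by_cases hq1 : q ∈ Q ⊓ S₁
    · rw [hcomm1 y hy q hq1]
      simp
    · have h1 : y * q * y⁻¹ ∈ Q := (Subgroup.mem_normalizer_iff.1 (hHQ hy.2) q).1 hq
      have h2 : y * q * y⁻¹ ∉ Q ⊓ S₁ := by
        intro h2
        have h3 := hcomm1 y hy _ h2
        have h4 : y * q * y⁻¹ = q := by
          have : y * (y * q * y⁻¹) = y * q := by rw [h3]; group
          exact mul_left_cancel this
        rw [h4] at h2
        exact hq1 h2
      have h5 := inv_mul_mem_of_card_le_two_mul inf_le_left hcard (Q.inv_mem h1) (Q.inv_mem hq)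
        (fun h => h2 (by simpa using (Q ⊓ S₁).inv_mem h))
        (fun h => hq1 (by simpa using (Q ⊓ S₁).inv_mem h))
      simpa using h5
  rw [eq_bot_iff]
  intro y hy
  rw [Subgroup.mem_bot]
  exact hQY y (hcQ ⟨hy.2, hcomm2 y hy⟩) hy

end Cfsg.Agent.Lib.Helper37
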