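import Cfsg.Agent.Lib.Helper37.CharPMore
import Cfsg.Agent.S0631

set_option autoImplicit false

namespace Cfsg.Agent.Lib.Helper37

open Cfsg.Agent.Lib

universe u

theorem isPConstrained_iff_charP {G : Type u} [Group G] [Finite G] {p : ℕ} [Fact p.Prime] :
    Cfsg.IsPConstrained p G ↔ CharP p (G ⧸ Cfsg.pPrimeCore p G) :=
  Helper14.isPConstrained_iff

/-- a group of characteristic `p` is `p`-constrained -/
theorem CharP.isPConstrained {G : Type u} [Group G] [Finite G] {p : ℕ} [Fact p.Prime]
    (h : CharP p G) : Cfsg.IsPConstrained p G :=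
  Cfsg.Agent.S0631.isPConstrained_of_surjective (MonoidHom.id G) Function.surjective_id
    (by
      have : (MonoidHom.id G).ker = ⊥ := by
        rw [MonoidHom.ker_eq_bot_iff]; exact Function.injective_id
      rw [this]; simp) h

/-- `p`-constrained with trivial `p'`-core is characteristic `p` -/
theorem charP_of_isPConstrained {G : Type u} [Group G] [Finite G] {p : ℕ} [Fact p.Prime]
    (h : Cfsg.IsPConstrained p G) (h0 : Cfsg.pPrimeCore p G = ⊥) : CharP p G := by
  rw [isPConstrained_iff_charP] at h
  exact CharP.congr ((QuotientGroup.quotientMulEquivOfEq h0).trans QuotientGroup.quotientBot) h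

/-- image of a `p`-constrained group with kernel `O_{p'}` has characteristic `p` -/
theorem charP_of_surjective_of_isPConstrained {H H' : Type u} [Group H] [Group H'] [Finite H]
    {p : ℕ} [Fact p.Prime] (f : H →* H') (hf : Function.Surjective f)
    (hker : f.ker = Cfsg.pPrimeCore p H) (h : Cfsg.IsPConstrained p H) : CharP p H' := by
  rw [isPConstrained_iff_charP] at h
  exact CharP.congr ((QuotientGroup.quotientMulEquivOfEq hker.symm).trans
    (QuotientGroup.quotientKerEquivOfSurjective f hf)) h

theorem isPConstrained_congr {H H' : Type u} [Group H] [Group H'] [Finite H] {p : ℕ}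
    [Fact p.Prime] (e : H ≃* H') (h : Cfsg.IsPConstrained p H) : Cfsg.IsPConstrained p H' := by
  have : Finite H' := Finite.of_equiv H e.toEquiv
  rw [isPConstrained_iff_charP] at h
  apply Cfsg.Agent.S0631.isPConstrained_of_surjective
    ((QuotientGroup.mk' (Cfsg.pPrimeCore p H)).comp e.symm.toMonoidHom)
    ((QuotientGroup.mk'_surjective _).comp e.symm.surjective) _ h
  have h1 : ((QuotientGroup.mk' (Cfsg.pPrimeCore p H)).comp e.symm.toMonoidHom).ker =
      (Cfsg.pPrimeCore p H).map e.toMonoidHom := by
    ext x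
    rw [MonoidHom.mem_ker]
    simp only [MonoidHom.coe_comp, Function.comp_apply, QuotientGroup.mk'_apply,
      QuotientGroup.eq_one_iff, MulEquiv.coe_toMonoidHom]
    constructor
    · intro hx; exact ⟨_, hx, by simp⟩
    · rintro ⟨y, hy, rfl⟩; simpa using hy
  rw [h1, Subgroup.card_map_of_injective e.injective]
  exact Helper28.pPrimeCore_coprime p

/-- `T ⊴ N` a `p`-subgroup, `K ⊴ N` a `p`-constrained subgroup containing `C_N(T)`; then `N` is
`p`-constrained. -/
theorem isPConstrained_of_normal {N : Type u} [Group N] [Finite N] {p : ℕ} [Fact p.Prime]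
    (T K : Subgroup N) [hTn : T.Normal] [hKn : K.Normal] (hT : IsPGroup p ↥T)
    (hTK : Subgroup.centralizer (T : Set N) ≤ K) (hK : Cfsg.IsPConstrained p ↥K) :
    Cfsg.IsPConstrained p N := by
  rw [isPConstrained_iff_charP]
  set W := Cfsg.pPrimeCore p N with hW
  have hWc : (Nat.card ↥W).Coprime p := Helper28.pPrimeCore_coprime p
  have hKbar : (K.map (QuotientGroup.mk' W)).Normal :=
    hKn.map _ (QuotientGroup.mk'_surjective W)
  apply CharP.of_centralizer_le hKbar.isSubnormal
  · intro y hy
    obtain ⟨g, rfl⟩ := QuotientGroup.mk'_surjective W y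
    have hTbar : T.map (QuotientGroup.mk' W) ≤ Cfsg.pCore p (N ⧸ W) :=
      Helper28.le_pCore (hTn.map _ (QuotientGroup.mk'_surjective W)) (hT.map _)
    have h1 : QuotientGroup.mk' W g ∈
        Subgroup.centralizer ((T.map (QuotientGroup.mk' W) : Subgroup (N ⧸ W)) : Set (N ⧸ W)) :=
      Subgroup.centralizer_le hTbar hy
    obtain ⟨h, hh, hhg⟩ := Helper14.exists_mem_centralizer_lift W hWc hT h1
    rw [← hhg]
    exact ⟨h, hTK hh, rfl⟩
  · apply charP_of_surjective_of_isPConstrained ((QuotientGroup.mk' W).subgroupMap K)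
      ((QuotientGroup.mk' W).subgroupMap_surjective K) _ hK
    have h2 := Helper28.pPrimeCore_inf_subnormal p hKn.isSubnormal
    ext x
    rw [MonoidHom.mem_ker]
    constructor
    · intro hx
      have h3 : (x : N) ∈ W := by
        have := congrArg Subtype.val hx
        simpa [QuotientGroup.eq_one_iff] using this
      have h4 : (x : N) ∈ (Cfsg.pPrimeCore p ↥K).map K.subtype := by
        rw [← h2]; exact ⟨h3, x.2⟩
      obtain ⟨y, hy, hyx⟩ := h4
      have : y = x := Subtype.ext hyx
      rwa [← this]
    · intro hx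
      have h4 : (x : N) ∈ Cfsg.pPrimeCore p N ⊓ K := by
        rw [h2]; exact ⟨x, hx, rfl⟩
      apply Subtype.ext
      simpa [QuotientGroup.eq_one_iff] using h4.1

theorem subgroupOf_centralizer_eq' {G : Type*} [Group G] {H N : Subgroup G} (h : H ≤ N) :
    (Subgroup.centralizer (H : Set G)).subgroupOf N =
      Subgroup.centralizer ((H.subgroupOf N : Subgroup ↥N) : Set ↥N) := by
  ext x
  rw [Subgroup.mem_subgroupOf, Subgroup.mem_centralizer_iff, Subgroup.mem_centralizer_iff]
  constructor
  · intro hx y hy
    exact Subtype.ext (hx (y : G) hy)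
  · intro hx y hy
    exact congrArg Subtype.val (hx ⟨y, h hy⟩ hy)

/-- `M` `p`-constrained, `T ≤ M` a `p`-subgroup with `N_G(T) ≤ M`: `N_G(T)` is `p`-constrained -/
theorem isPConstrained_normalizer_of_le {G : Type u} [Group G] [Finite G] {p : ℕ} [Fact p.Prime]
    {M T : Subgroup G} (hM : Cfsg.IsPConstrained p ↥M) (hT : IsPGroup p ↥T) (hTM : T ≤ M)
    (hN : Subgroup.normalizer (T : Set G) ≤ M) :
    Cfsg.IsPConstrained p ↥(Subgroup.normalizer (T : Set G)) := by
  have h1 := (Cfsg.Agent.S0631.result hM (T.subgroupOf M)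
    (hT.comap_of_injective _ (Subgroup.subtype_injective _))).1
  rw [← Subgroup.subgroupOf_normalizer_eq hTM] at h1
  exact isPConstrained_congr (Subgroup.subgroupOfEquivOfLe hN) h1

/-- `M` `p`-constrained, `T ≤ M` a `p`-subgroup with `C_G(T) ≤ M`: `C_G(T)` is `p`-constrained -/
theorem isPConstrained_centralizer_of_le {G : Type u} [Group G] [Finite G] {p : ℕ} [Fact p.Prime]
    {M T : Subgroup G} (hM : Cfsg.IsPConstrained p ↥M) (hT : IsPGroup p ↥T) (hTM : T ≤ M)
    (hC : Subgroup.centralizer (T : Set G) ≤ M) :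
    Cfsg.IsPConstrained p ↥(Subgroup.centralizer (T : Set G)) := by
  have h1 := (Cfsg.Agent.S0631.result hM (T.subgroupOf M)
    (hT.comap_of_injective _ (Subgroup.subtype_injective _))).2
  rw [← subgroupOf_centralizer_eq' hTM] at h1
  exact isPConstrained_congr (Subgroup.subgroupOfEquivOfLe hC) h1

/-- `C_G(T)` `p`-constrained implies `N_G(T)` `p`-constrained (`T` a `p`-subgroup) -/
theorem isPConstrained_normalizer_of_centralizer {G : Type u} [Group G] [Finite G] {p : ℕ}
    [Fact p.Prime] {T : Subgroup G} (hT : IsPGroup p ↥T)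
    (hC : Cfsg.IsPConstrained p ↥(Subgroup.centralizer (T : Set G))) :
    Cfsg.IsPConstrained p ↥(Subgroup.normalizer (T : Set G)) := by
  have hTn : (T.subgroupOf (Subgroup.normalizer (T : Set G))).Normal :=
    Subgroup.normal_in_normalizer
  have hle : Subgroup.centralizer (T : Set G) ≤ Subgroup.normalizer (T : Set G) :=
    Subgroup.centralizer_le_normalizer _
  have hKn : ((Subgroup.centralizer (T : Set G)).subgroupOf
      (Subgroup.normalizer (T : Set G))).Normal :=
    (Subgroup.normal_subgroupOf_iff_le_normalizer hle).2 (normalizer_le_normalizer_centralizer' T)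
  apply isPConstrained_of_normal (T.subgroupOf (Subgroup.normalizer (T : Set G)))
    ((Subgroup.centralizer (T : Set G)).subgroupOf (Subgroup.normalizer (T : Set G)))
    (hT.comap_of_injective _ (Subgroup.subtype_injective _))
  · rw [subgroupOf_centralizer_eq' Subgroup.le_normalizer]
  · exact isPConstrained_congr (Subgroup.subgroupOfEquivOfLe hle).symm hC

/-- if `x ∈ Z(T)` and `C_G(x)` is `p`-constrained then `N_G(T)` is `p`-constrained -/
theorem isPConstrained_normalizer_of_central {G : Type u} [Group G] [Finite G] {p : ℕ}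
    [Fact p.Prime] {T : Subgroup G} (hT : IsPGroup p ↥T) {x : G} (hxT : x ∈ T)
    (hxc : ∀ t ∈ T, t * x = x * t)
    (hC : Cfsg.IsPConstrained p ↥(Subgroup.centralizer ({x} : Set G))) :
    Cfsg.IsPConstrained p ↥(Subgroup.normalizer (T : Set G)) := by
  apply isPConstrained_normalizer_of_centralizer hT
  apply isPConstrained_centralizer_of_le hC hT
  · intro t ht
    rw [Subgroup.mem_centralizer_singleton_iff]
    exact hxc t ht
  · apply Subgroup.centralizer_le
    simpa using hxT

end Cfsg.Agent.Lib.Helper37
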