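import Mathlib
import Cfsg.Agent.Lib.Helper99.SPU.Defs

set_option autoImplicit false

universe u

namespace Cfsg.Agent.Lib.Helper37.SPU

open Module LinearMap Cfsg.Agent.Lib.Helper99.SPU

theorem aff_Nm_succ {F V : Type*} [Field F] [AddCommGroup V] [Module F V] (T : End F V) (j : ℕ)
    (v : V) : Nm T (j + 1) v = v + T (Nm T j v) := by
  unfold Nm
  rw [Finset.sum_range_succ', LinearMap.add_apply, add_comm]
  congr 1
  simp only [LinearMap.sum_apply, map_sum]
  apply Finset.sum_congr rfl
  intro i _
  rw [pow_succ']
  rfl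

/-- AFF : the spectrum of `V ⋊ H` -/
theorem exists_affine {F V : Type u} [Field F] [CharP F 2] [AddCommGroup V] [Module F V] [Finite V]
    [Nontrivial V] (H : Subgroup (End F V)ˣ) :
    ∃ (G : Type u) (_ : Group G) (_ : Finite G) (K : Subgroup G), K.Normal ∧ K ≠ ⊥ ∧
      Group.IsSolvable K ∧ ∀ n : ℕ, (∃ x : G, orderOf x = n) ↔
        ∃ h ∈ H, n = orderOf h ∨ (n = 2 * orderOf h ∧ Nm (h : End F V) (orderOf h) ≠ 0) := by
  classical
  have hfinE : Finite (End F V) := Finite.of_injective (fun f : End F V => (f : V → V))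
    DFunLike.coe_injective
  let φ : H →* MulAut (Multiplicative V) :=
    { toFun := fun h => AddEquiv.toMultiplicative
        ((LinearMap.GeneralLinearGroup.toLinearEquiv (h : (End F V)ˣ)).toAddEquiv)
      map_one' := by ext; rfl
      map_mul' := by intros; ext; rfl }
  have hφ : ∀ (h : H) (v : V), φ h (Multiplicative.ofAdd v)
      = Multiplicative.ofAdd (((h : (End F V)ˣ) : End F V) v) := fun h v => rfl
  let G := Multiplicative V ⋊[φ] H
  have hfin : Finite G := Finite.of_equiv _ SemidirectProduct.equivProd.symm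
  have hpow : ∀ (v : V) (h : H) (j : ℕ),
      (⟨Multiplicative.ofAdd v, h⟩ : G) ^ j
        = ⟨Multiplicative.ofAdd (Nm ((h : (End F V)ˣ) : End F V) j v), h ^ j⟩ := by
    intro v h j
    induction j with
    | zero =>
      apply SemidirectProduct.ext
      · simp [Nm]
      · simp
    | succ n ih =>
      rw [pow_succ', ih]
      apply SemidirectProduct.ext
      · rw [SemidirectProduct.mul_left, hφ, aff_Nm_succ]
        rfl
      · rw [SemidirectProduct.mul_right, pow_succ']
  have htwo : ∀ w : V, w + w = 0 := by
    intro w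
    have h2 : (2 : F) = 0 := CharTwo.two_eq_zero
    rw [← two_smul F w, h2, zero_smul]
  have hordH : ∀ h : H, orderOf h = orderOf (h : (End F V)ˣ) := fun h =>
    (Subgroup.orderOf_coe h).symm
  -- the order of an element
  have hord : ∀ (v : V) (h : H), (Nm ((h : (End F V)ˣ) : End F V) (orderOf h) v = 0 →
      orderOf (⟨Multiplicative.ofAdd v, h⟩ : G) = orderOf h) ∧
      (Nm ((h : (End F V)ˣ) : End F V) (orderOf h) v ≠ 0 →
      orderOf (⟨Multiplicative.ofAdd v, h⟩ : G) = 2 * orderOf h) := by
    intro v h
    set x : G := ⟨Multiplicative.ofAdd v, h⟩ with hx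
    set m := orderOf h with hm
    have hm0 : 0 < m := orderOf_pos h
    have h1 : m ∣ orderOf x := by
      have := orderOf_map_dvd (SemidirectProduct.rightHom : G →* H) x
      exact this
    have hxm : x ^ m = ⟨Multiplicative.ofAdd (Nm ((h : (End F V)ˣ) : End F V) m v), 1⟩ := by
      rw [hx, hpow, hm, pow_orderOf_eq_one]
    have h2 : x ^ (2 * m) = 1 := by
      rw [mul_comm, pow_mul, hxm, pow_two]
      apply SemidirectProduct.ext
      · rw [SemidirectProduct.mul_left]
        simp only [map_one, MulAut.one_apply, SemidirectProduct.one_left]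
        rw [← ofAdd_add, htwo]
        rfl
      · rw [SemidirectProduct.mul_right]
        simp
    have h3 : orderOf x ∣ 2 * m := orderOf_dvd_of_pow_eq_one h2
    constructor
    · intro h0
      apply Nat.dvd_antisymm _ h1
      apply orderOf_dvd_of_pow_eq_one
      rw [hxm, h0]
      rfl
    · intro h0
      obtain ⟨t, ht⟩ := h1
      rw [ht, mul_comm 2 m] at h3
      have ht2 : t ∣ 2 := Nat.dvd_of_mul_dvd_mul_left hm0 h3
      rcases (Nat.dvd_prime Nat.prime_two).mp ht2 with rfl | rfl
      · exfalso
        apply h0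
        have : x ^ m = 1 := by
          have := pow_orderOf_eq_one x
          rwa [ht, mul_one] at this
        rw [hxm] at this
        have := congrArg SemidirectProduct.left this
        exact this
      · rw [ht, mul_comm]
  refine ⟨G, inferInstance, hfin, (SemidirectProduct.rightHom : G →* H).ker, inferInstance, ?_, ?_, ?_⟩
  · obtain ⟨v, hv⟩ := exists_ne (0 : V)
    intro hbot
    have hmem : (⟨Multiplicative.ofAdd v, 1⟩ : G) ∈ (SemidirectProduct.rightHom : G →* H).ker := by
      rw [MonoidHom.mem_ker]; rfl
    rw [hbot, Subgroup.mem_bot] at hmem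
    exact hv (congrArg SemidirectProduct.left hmem)
  · apply Group.isSolvable_of_comm
    rintro ⟨a, ha⟩ ⟨b, hb⟩
    rw [MonoidHom.mem_ker] at ha hb
    apply Subtype.ext
    apply SemidirectProduct.ext
    · change (a * b).left = (b * a).left
      have ha' : a.right = 1 := ha
      have hb' : b.right = 1 := hb
      rw [SemidirectProduct.mul_left, SemidirectProduct.mul_left, ha', hb']
      simp [mul_comm]
    · change (a * b).right = (b * a).right
      have ha' : a.right = 1 := ha
      have hb' : b.right = 1 := hb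
      rw [SemidirectProduct.mul_right, SemidirectProduct.mul_right, ha', hb']
  · intro n
    constructor
    · rintro ⟨x, rfl⟩
      obtain ⟨w, h⟩ := x
      refine ⟨h, h.2, ?_⟩
      have := hord (Multiplicative.toAdd w) h
      by_cases h0 : Nm ((h : (End F V)ˣ) : End F V) (orderOf h) (Multiplicative.toAdd w) = 0
      · left
        rw [← hordH]
        exact this.1 h0
      · right
        rw [← hordH]
        refine ⟨this.2 h0, ?_⟩
        intro hz
        apply h0
        rw [hz]; rfl
    · rintro ⟨h, hh, hn | ⟨hn, hN⟩⟩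
      · refine ⟨⟨Multiplicative.ofAdd 0, ⟨h, hh⟩⟩, ?_⟩
        rw [(hord 0 ⟨h, hh⟩).1 (by simp), hn, hordH]
      · have : ∃ v, Nm (h : End F V) (orderOf h) v ≠ 0 := by
          by_contra hcon
          push Not at hcon
          apply hN
          ext v
          exact hcon v
        obtain ⟨v, hv⟩ := this
        refine ⟨⟨Multiplicative.ofAdd v, ⟨h, hh⟩⟩, ?_⟩
        rw [(hord v ⟨h, hh⟩).2 (by rw [hordH]; exact hv), hn, hordH]

end Cfsg.Agent.Lib.Helper37.SPU
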