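import Mathlib
import Cfsg.Agent.Lib.Helper99.SPU.Defs
import Cfsg.Agent.Lib.Helper50.QuadIso

set_option autoImplicit false

universe u

namespace Cfsg.Agent.Lib.Helper37.SPU

open Module LinearMap QuadraticMap Cfsg.Agent.Lib.Helper48
  Cfsg.Agent.Lib.Helper99.SP8 Cfsg.Agent.Lib.Helper99.SPU

theorem trans_iso {F : Type*} [Field F] [Fintype F] {V V₀ : Type*} [AddCommGroup V] [Module F V]
    [FiniteDimensional F V] [AddCommGroup V₀] [Module F V₀] [FiniteDimensional F V₀]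
    (Q : QuadraticForm F V) (Q₀ : QuadraticForm F V₀) (h : IsTyp Q 4 false)
    (h₀ : IsTyp Q₀ 4 false) : ∃ e : V ≃ₗ[F] V₀, ∀ v, Q₀ (e v) = Q v := by
  obtain ⟨hd, hn, hc⟩ := h
  obtain ⟨hd₀, hn₀, hc₀⟩ := h₀
  apply Cfsg.Agent.Lib.Helper50.Quad.iso_of_card_sing 3 (by rw [hd]) (by rw [hd₀])
  · intro w _ hw
    by_contra hcon
    push Not at hcon
    exact hw (hn w (fun y => hcon y trivial))
  · intro w _ hw
    by_contra hcon
    push Not at hcon
    exact hw (hn₀ w (fun y => hcon y trivial))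
  · simp only [cond_false] at hc hc₀
    have hq : 0 < Fintype.card F := Fintype.card_pos
    have : Fintype.card F * Nat.card {v : V // Q v = 0}
        = Fintype.card F * Nat.card {v : V₀ // Q₀ v = 0} := by omega
    exact Nat.eq_of_mul_eq_mul_left hq this

theorem trans_core {F : Type*} [Field F] {V V₀ : Type*} [AddCommGroup V] [Module F V]
    [FiniteDimensional F V] [AddCommGroup V₀] [Module F V₀] [FiniteDimensional F V₀]
    (Q : QuadraticForm F V) (Q₀ : QuadraticForm F V₀) (e : V ≃ₗ[F] V₀)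
    (he : ∀ v, Q₀ (e v) = Q v) (T : End F V) (hT : ∀ v, Q (T v) = Q v) {K : ℕ} (hK : 0 < K)
    (hord : ∀ j, T ^ j = 1 ↔ K ∣ j) :
    ∃ g : (End F V₀)ˣ, (∀ v, Q₀ ((g : End F V₀) v) = Q₀ v) ∧
      finrank F (ker ((g : End F V₀) - 1)) = finrank F (ker (T - 1)) ∧ orderOf g = K ∧
      (Nm T K ≠ 0 → Nm (g : End F V₀) K ≠ 0) := by
  let ρ : End F V ≃+* End F V₀ := e.conjRingEquiv
  have hρ : ∀ (S : End F V) (x : V₀), ρ S x = e (S (e.symm x)) := fun S x => rfl
  have hpow : ∀ j, (ρ T) ^ j = 1 ↔ K ∣ j := by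
    intro j
    rw [← hord j, ← map_pow]
    constructor
    · intro h
      apply ρ.injective
      rw [h, map_one]
    · intro h
      rw [h, map_one]
  let g : (End F V₀)ˣ := Units.ofPowEqOne (ρ T) K ((hpow K).mpr dvd_rfl) hK.ne'
  have hg : (g : End F V₀) = ρ T := rfl
  refine ⟨g, ?_, ?_, ?_, ?_⟩
  · intro v
    rw [hg, hρ, he, hT, ← he, LinearEquiv.apply_symm_apply]
  · rw [hg]
    have h1 : ρ T - 1 = ρ (T - 1) := by rw [map_sub, map_one]
    rw [h1]
    have h2 : ker (ρ (T - 1)) = (ker (T - 1)).map (e : V →ₗ[F] V₀) := by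
      ext x
      rw [LinearMap.mem_ker, hρ, Submodule.mem_map_equiv, LinearMap.mem_ker]
      constructor
      · intro h
        exact e.injective (by rw [h, map_zero])
      · intro h
        rw [h, map_zero]
    rw [h2]
    exact LinearEquiv.finrank_map_eq e _
  · have hgp : ∀ j, g ^ j = 1 ↔ K ∣ j := by
      intro j
      rw [← hpow j, ← hg, ← Units.val_pow_eq_pow_val, Units.val_eq_one]
    apply Nat.dvd_antisymm
    · exact orderOf_dvd_of_pow_eq_one ((hgp K).mpr dvd_rfl)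
    · exact (hgp _).mp (pow_orderOf_eq_one g)
  · intro hN h0
    apply hN
    apply ρ.injective
    rw [map_zero, ← h0, hg]
    unfold Nm
    rw [map_sum]
    apply Finset.sum_congr rfl
    intro i _
    rw [map_pow]

/-- TRANS1 -/
theorem transport_QD {F : Type u} [Field F] [Fintype F] {V₀ : Type u} [AddCommGroup V₀]
    [Module F V₀] [FiniteDimensional F V₀] (Q₀ : QuadraticForm F V₀) (h₀ : IsTyp Q₀ 4 false)
    {K δ : ℕ} (hK : 0 < K) (h : QD F false 4 K δ) :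
    ∃ g : (End F V₀)ˣ, (∀ v, Q₀ ((g : End F V₀) v) = Q₀ v) ∧
      finrank F (ker ((g : End F V₀) - 1)) = δ ∧ orderOf g = K := by
  obtain ⟨V, _, _, _, Q, T, hQ, hT, hord, hδ⟩ := h
  obtain ⟨e, he⟩ := trans_iso Q Q₀ hQ h₀
  obtain ⟨g, h1, h2, h3, -⟩ := trans_core Q Q₀ e he T hT hK hord
  exact ⟨g, h1, h2.trans hδ, h3⟩

/-- TRANS2 -/
theorem transport_QN {F : Type u} [Field F] [Fintype F] {V₀ : Type u} [AddCommGroup V₀]
    [Module F V₀] [FiniteDimensional F V₀] (Q₀ : QuadraticForm F V₀) (h₀ : IsTyp Q₀ 4 false)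
    {K δ : ℕ} (hK : 0 < K) (h : QN F false 4 K δ) :
    ∃ g : (End F V₀)ˣ, (∀ v, Q₀ ((g : End F V₀) v) = Q₀ v) ∧
      finrank F (ker ((g : End F V₀) - 1)) = δ ∧ orderOf g = K ∧ Nm (g : End F V₀) K ≠ 0 := by
  obtain ⟨V, _, _, _, Q, T, hQ, hT, hord, hδ, hN⟩ := h
  obtain ⟨e, he⟩ := trans_iso Q Q₀ hQ h₀
  obtain ⟨g, h1, h2, h3, h4⟩ := trans_core Q Q₀ e he T hT hK hord
  exact ⟨g, h1, h2.trans hδ, h3, h4 hN⟩

end Cfsg.Agent.Lib.Helper37.SPU
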